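import Cfsg.Agent.S0414
import Cfsg.Agent.S1663
import Cfsg.Agent.SPOR.Ord11c

/-! Two endgames in degree 22. -/

set_option autoImplicit false
open MulAction Subgroup

namespace CL.L3H

theorem no22 {G Ω : Type*} [Group G] [Finite G] [Finite Ω] [MulAction G Ω] [FaithfulSMul G Ω]
    (h2 : IsMultiplyPretransitive G Ω 2) (hΩ : Nat.card Ω = 22)
    (hG : Nat.card G = 3696 ∨ Nat.card G = 7392) : False := by
  have : Fact (Nat.Prime 11) := ⟨by norm_num⟩
  have hp := isPreprimitive_of_is_two_pretransitive h2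
  obtain ⟨P⟩ : Nonempty (Sylow 11 G) := inferInstance
  have hP : Nat.card P = 11 := by
    rcases hG with h | h
    · exact CL.Small.card_sylow_eq_of_factor P (a := 1) (m := 336) h (by norm_num)
    · exact CL.Small.card_sylow_eq_of_factor P (a := 1) (m := 672) h (by norm_num)
  obtain ⟨n, c, e, h1, he, h3, h4, h5⟩ := CL.Ord.prime_data P hP
  have key : ∀ r : ℕ, r = 3 ∨ r = 7 → ¬ r ∣ c := by
    intro r hr hc
    have : Fact r.Prime := ⟨by rcases hr with rfl | rfl <;> norm_num⟩
    obtain ⟨x, hx, hx'⟩ := CL.Small.exists_mem_orderOf_eq_prime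
      (centralizer ((P : Subgroup G) : Set G)) r (h3 ▸ hc.mul_left 11)
    obtain ⟨y, hy, hy'⟩ := CL.Small.exists_mem_orderOf_eq_prime (P : Subgroup G) 11 hP.symm.dvd
    obtain ⟨a, ha⟩ := (CL.Small.isPGroup_zpowers_of_orderOf (k := 1)
      (hx'.trans (pow_one r).symm)).nonempty_fixed_point_of_prime_not_dvd_card Ω
        (by rw [hΩ]; rcases hr with rfl | rfl <;> norm_num)
    have ha' : x • a = a := ha ⟨x, mem_zpowers x⟩
    have hne : a ≠ y • a := fun h => by
      have h6 := (stabilizer G a).card_mul_index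
      have h7 := orderOf_dvd_natCard (stabilizer G a) (show y ∈ stabilizer G a from h.symm)
      rw [index_stabilizer_of_transitive, hΩ] at h6
      rw [hy'] at h7
      omega
    have h6 := (fixingSubgroup G ({a, y • a} : Set Ω)).card_mul_index
    have h7 := orderOf_dvd_natCard (fixingSubgroup G ({a, y • a} : Set Ω)) (x := x) (by
      rw [mem_fixingSubgroup_iff]
      rintro _ (rfl | rfl)
      · exact ha'
      · rw [← mul_smul, ← hx y hy, mul_smul, ha'])
    rw [IsMultiplyPretransitive.index_of_fixingSubgroup_eq _ (by rwa [Set.ncard_pair hne]),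
      Set.ncard_pair hne, hΩ, show Nat.choose 22 2 * Nat.factorial 2 = 462 by decide] at h6
    rw [hx'] at h7
    rcases hr with rfl | rfl <;> omega
  have hd : n * (c * e) ∣ 672 := by
    rcases hG with h | h
    · exact ⟨2, by linarith⟩
    · exact ⟨1, by linarith⟩
  obtain ⟨rfl, rfl, rfl⟩ : n = 672 ∧ c = 1 ∧ e = 1 := (by decide +kernel : ∀ e ∈ Nat.divisors 10,
    ∀ c ∈ Nat.divisors 672, ∀ n ∈ Nat.divisors 672, n % 11 = 1 → ¬ 3 ∣ c → ¬ 7 ∣ c →
      (3696 = n * (11 * c * e) ∨ 7392 = n * (11 * c * e)) → n = 672 ∧ c = 1 ∧ e = 1) e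
      (by simpa using he) c
      (Nat.mem_divisors.2 ⟨((dvd_mul_right c e).mul_left n).trans hd, by norm_num⟩) n
      (Nat.mem_divisors.2 ⟨(dvd_mul_right n _).trans hd, by norm_num⟩) h1 (key 3 (Or.inl rfl))
      (key 7 (Or.inr rfl)) (h5 ▸ hG.imp Eq.symm Eq.symm)
  obtain ⟨K, _, hK⟩ := CL.Ord.exists_compl P (eq_of_le_of_card_ge
    (CL.Small.centralizer_le_normalizer' _) (by omega)).ge
  have hK' : Nat.card K = 672 := by rw [hP] at hK; omega
  have ht : IsPretransitive K Ω := IsQuasiPreprimitive.isPretransitive_of_normal fun h => by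
    have : K = ⊥ := (eq_bot_iff_forall K).2 fun x hx =>
      eq_of_smul_eq_smul (α := Ω) fun a => by
        rw [one_smul]
        exact (h.ge (Set.mem_univ a)) ⟨x, hx⟩
    rw [this, card_bot] at hK'
    omega
  obtain ⟨a⟩ : Nonempty Ω := (Nat.card_pos_iff.1 (by omega)).1
  have := (stabilizer K a).index_dvd_card
  rw [index_stabilizer_of_transitive, hΩ, hK'] at this
  omega

open Pointwise in
theorem m22 {G Ω : Type*} [Group G] [Finite G] [Finite Ω] [MulAction G Ω] [FaithfulSMul G Ω]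
    (hΩ : Nat.card Ω = 22) (B : Set (Set Ω)) (h6 : ∀ b ∈ B, b.ncard = 6)
    (h3 : ∀ x y z : Ω, x ≠ y → x ≠ z → y ≠ z → ∃! b, b ∈ B ∧ x ∈ b ∧ y ∈ b ∧ z ∈ b)
    (hB : ∀ g : G, ∀ b ∈ B, (fun x => g • x) '' b ∈ B) (hG : 443520 ∣ Nat.card G) :
    Cfsg.Spor.IsoM22 G ∨ ∃ H : Subgroup G, H.index = 2 ∧ Cfsg.Spor.IsoM22 H := by
  classical
  have := Fintype.ofFinite Ω
  let B' : Set (Finset Ω) := {s | (s : Set Ω) ∈ B}
  have hS : Cfsg.IsSteinerSystem 3 6 B' := by
    refine ⟨fun b hb => by rw [← h6 _ hb, Set.ncard_coe_finset], fun s hs => ?_⟩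
    obtain ⟨x, y, z, hxy, hxz, hyz, rfl⟩ := Finset.card_eq_three.1 hs
    obtain ⟨b, ⟨hb, hx, hy, hz⟩, hu⟩ := h3 x y z hxy hxz hyz
    refine ⟨b.toFinset, ⟨by simpa [B'] using hb, by
      simp [Set.insert_subset_iff, hx, hy, hz]⟩, fun b' hb' => ?_⟩
    rw [← hu b' ⟨hb'.1, hb'.2 (by simp), hb'.2 (by simp), hb'.2 (by simp)⟩, Finset.toFinset_coe]
  obtain ⟨hc, -, H, hH, hs⟩ := Cfsg.Agent.S0414.result (by rw [← hΩ, Nat.card_eq_fintype_card]) hS
  have h1 : ∀ g : G, ∀ s ∈ B', toPermHom G Ω g • s ∈ B' := fun g s hs => by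
    change ((toPermHom G Ω g • s : Finset Ω) : Set Ω) ∈ B
    rw [Finset.coe_smul_finset]
    exact hB g _ hs
  let f : G →* Cfsg.setSystemAut B' := (toPermHom G Ω).codRestrict _ fun g => by
    rw [mem_stabilizer_iff]
    refine le_antisymm ?_ fun s hs => ⟨_, h1 g⁻¹ s hs, by
      simp only [map_inv, smul_inv_smul]⟩
    rintro _ ⟨s, hs, rfl⟩
    exact h1 g s hs
  have hf : Function.Injective f := fun a b h => toPerm_injective (congrArg Subtype.val h)
  have hr : Nat.card f.range = Nat.card G := (Nat.card_congr (MonoidHom.ofInjective hf).toEquiv).symm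
  have hd := card_subgroup_dvd_card f.range
  rw [hr, hc] at hd
  obtain ⟨k, hk⟩ := hG
  have hk2 : k ∣ 2 := Nat.dvd_of_mul_dvd_mul_left (by norm_num : 0 < 443520) (hk ▸ hd)
  have hs1 := hs.1
  rcases (Nat.dvd_prime Nat.prime_two).1 hk2 with rfl | rfl
  · have hi : f.range.index = 2 := by
      have := f.range.card_mul_index
      rw [hr, hc, hk] at this
      omega
    have hn : f.range.Normal := normal_of_index_eq_two hi
    have hle : H ≤ f.range := by
      rcases (hn.subgroupOf H).eq_bot_or_eq_top with a | a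
      · have h7 := relIndex_dvd_index_of_normal f.range H
        rw [relIndex, a, index_bot, hs.2, hi] at h7
        omega
      · exact subgroupOf_eq_top.1 a
    have he : H = f.range := eq_of_le_of_card_ge hle (by rw [hs.2]; omega)
    obtain ⟨e⟩ := Cfsg.Agent.S1663.result hs
    exact Or.inl ⟨((MonoidHom.ofInjective hf).trans (MulEquiv.subgroupCongr he.symm)).trans e⟩
  · have hb : Function.Bijective f :=
      (Nat.bijective_iff_injective_and_card f).2 ⟨hf, by omega⟩
    obtain ⟨e⟩ := Cfsg.Agent.S1663.result hs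
    let g := MulEquiv.ofBijective f hb
    exact Or.inr ⟨H.map g.symm.toMonoidHom, by
      rw [← hH]; exact index_map_equiv H g.symm, ⟨(g.symm.subgroupMap H).symm.trans e⟩⟩

end CL.L3H
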