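import Cfsg.Agent.PERM.L3H.LocA

/-! Coordinate maps `φ : SL₃(F) →* G` onto `N` with scalar kernel, and the vertices of `N`. -/

set_option autoImplicit false
set_option linter.unusedSimpArgs false
open Subgroup CL.MSS Matrix

namespace CL.L3H.Lc

variable {F : Type} [Field F] {G : Type*} [Group G] {N : Subgroup G} {n : ℕ}

local notation "SL3" => SpecialLinearGroup (Fin 3) F
local notation "V3" => Fin 3 → F

/-- A coordinate map for `N`. -/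
structure Gd (N : Subgroup G) (n : ℕ) (φ : SpecialLinearGroup (Fin 3) F →* G) : Prop where
  rng : φ.range = N
  ker : ∀ g, φ g = 1 ↔ g ∈ center (SpecialLinearGroup (Fin 3) F)
  two : (2 : F) = 0
  card : Nat.card F = 2 ^ n
  pos : 1 ≤ n

variable {φ : SpecialLinearGroup (Fin 3) F →* G}

theorem Gd.comp (h : Gd N n φ) (σ : SL3 ≃* SL3) : Gd N n (φ.comp σ.toMonoidHom) := by
  refine ⟨?_, fun g => ?_, h.two, h.card, h.pos⟩
  · rw [MonoidHom.range_comp, MonoidHom.range_eq_top.2 σ.surjective, ← MonoidHom.range_eq_map,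
      h.rng]
  · rw [MonoidHom.comp_apply, h.ker, mem_center_iff, mem_center_iff]
    refine ⟨fun H x => σ.injective (by rw [map_mul, map_mul]; exact H _), fun H x => ?_⟩
    obtain ⟨y, rfl⟩ := σ.surjective x
    change σ y * σ g = σ g * σ y
    rw [← map_mul, ← map_mul, H]

theorem Gd.mem (h : Gd N n φ) (g : SL3) : φ g ∈ N := h.rng ▸ ⟨g, rfl⟩

theorem Gd.ex (h : Gd N n φ) {x : G} (hx : x ∈ N) : ∃ g, φ g = x := by
  rw [← h.rng] at hx; exact hx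

theorem Gd.eq_iff (h : Gd N n φ) {x y : SL3} :
    φ x = φ y ↔ ∃ c : F, c ^ 3 = 1 ∧ x.1 = c • y.1 := by
  rw [← mul_inv_eq_one, ← map_inv, ← map_mul, h.ker, Matrix.SpecialLinearGroup.mem_center_iff,
    Fintype.card_fin]
  refine exists_congr fun c => and_congr_right fun _ => ?_
  have e : scalar (Fin 3) c = c • (1 : Matrix (Fin 3) (Fin 3) F) := by
    rw [scalar_apply, smul_one_eq_diagonal]
  rw [e]
  constructor
  · intro H
    have : x.1 = (x * y⁻¹).1 * y.1 := congrArg Subtype.val (inv_mul_cancel_right x y).symm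
    rw [this, ← H, smul_mul_assoc, one_mul]
  · intro H
    change _ = x.1 * (y⁻¹).1
    rw [H, smul_mul_assoc, show y.1 * (y⁻¹).1 = 1 from congrArg Subtype.val (mul_inv_cancel y)]

theorem eq_one_of_smul {c : F} (h3 : c ^ 3 = 1) {y : SL3} (h : y.1 = (c * c) • y.1) : c = 1 := by
  have h1 : (1 : Matrix (Fin 3) (Fin 3) F) = (c * c) • 1 := by
    have := congrArg (· * (y⁻¹).1) h
    simpa only [smul_mul_assoc,
      show y.1 * (y⁻¹).1 = 1 from congrArg Subtype.val (mul_inv_cancel y)] using this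
  have h2 := congrFun (congrFun h1 0) 0
  simp at h2
  linear_combination h3 + c * h2

theorem Gd.inj (h : Gd N n φ) {x y : SL3} (hx : x * x = 1) (hy : y * y = 1) (e : φ x = φ y) :
    x = y := by
  obtain ⟨c, h3, hc⟩ := h.eq_iff.1 e
  have h1 : x.1 * x.1 = y.1 * y.1 := congrArg Subtype.val (hx.trans hy.symm)
  rw [hc, smul_mul_smul_comm] at h1
  have := eq_one_of_smul h3 (y := y * y) h1.symm
  exact Subtype.ext (by rw [hc, this, one_smul])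

theorem Gd.comm (h : Gd N n φ) {x y : SL3} (hx : x * x = 1) (e : φ x * φ y = φ y * φ x) :
    x * y = y * x := by
  rw [← map_mul, ← map_mul] at e
  obtain ⟨c, h3, hc⟩ := h.eq_iff.1 e
  have hc' : x.1 * y.1 = c • (y.1 * x.1) := hc
  have hx' : x.1 * x.1 = 1 := congrArg Subtype.val hx
  have : y.1 = (c * c) • y.1 := by
    calc y.1 = x.1 * (x.1 * y.1) := by rw [← mul_assoc, hx', one_mul]
      _ = c • (x.1 * y.1 * x.1) := by rw [mul_assoc, ← mul_smul_comm, ← hc']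
      _ = _ := by rw [hc', smul_mul_assoc, smul_smul, mul_assoc, hx', mul_one]
  exact Subtype.ext (by rw [hc, eq_one_of_smul h3 this, one_smul])

theorem Gd.sq (h : Gd N n φ) {x : SL3} {v f : V3} (h0 : f ⬝ᵥ v = 0)
    (hx : x.1 = 1 + vecMulVec v f) : x * x = 1 := Subtype.ext (by
  change x.1 * x.1 = 1
  rw [hx, tv_mul, h0, zero_smul, add_zero, add_assoc, ← two_smul F, h.two, zero_smul, add_zero])

theorem Gd.sqA (h : Gd N n φ) {v : V3} {x : SL3} (hx : x ∈ A v) : x * x = 1 :=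
  hx.elim fun _ hf => h.sq hf.1 hf.2

theorem Gd.sqB (h : Gd N n φ) {v : V3} {x : SL3} (hx : x ∈ B v) : x * x = 1 :=
  hx.elim fun _ hf => h.sq hf.1 hf.2

theorem Gd.mem_map (h : Gd N n φ) {S : Subgroup SL3} (hS : ∀ x ∈ S, x * x = 1) {x : SL3}
    (hx : x * x = 1) : φ x ∈ S.map φ ↔ x ∈ S :=
  ⟨fun ⟨y, hy, e⟩ => h.inj (hS y hy) hx e ▸ hy, fun H => ⟨x, H, rfl⟩⟩

theorem Gd.le_of_map (h : Gd N n φ) {S T : Subgroup SL3} (hS : ∀ x ∈ S, x * x = 1)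
    (hT : ∀ x ∈ T, x * x = 1) (e : S.map φ ≤ T.map φ) : S ≤ T := fun x hx =>
  (h.mem_map hT (hS x hx)).1 (e ⟨x, hx, rfl⟩)

/-- Every involution of `N` is an elation. -/
theorem Gd.exists_tv (h : Gd N n φ) {z : G} (hz : z ∈ N) (h2 : z * z = 1) :
    ∃ (v f : V3) (h0 : f ⬝ᵥ v = 0), φ (tv v f h0) = z := by
  obtain ⟨g, rfl⟩ := h.ex hz
  rw [← map_mul, ← map_one φ] at h2
  obtain ⟨c, h3, hc⟩ := h.eq_iff.1 h2
  have hc' : g.1 * g.1 = c • 1 := hc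
  have : (c • g.1 - 1) * (c • g.1 - 1) = 0 := by
    rw [sub_mul, mul_sub, mul_sub, smul_mul_smul_comm, hc', smul_smul, one_mul, mul_one, one_mul,
      show c * c * c = 1 by linear_combination h3, one_smul]
    have : (2 : F) • (1 - c • g.1) = 0 := by rw [h.two, zero_smul]
    rw [← this, two_smul]; abel
  obtain ⟨v, f, h0, e⟩ := exists_vec this
  exact ⟨v, f, h0, h.eq_iff.2 ⟨c, h3, by rw [coe_tv, ← e]; abel⟩⟩

theorem ne_of_tv {v f : V3} {h0 : f ⬝ᵥ v = 0} (hz : φ (tv v f h0) ≠ 1) : v ≠ 0 ∧ f ≠ 0 := by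
  constructor <;> rintro rfl <;> refine hz ?_ <;> rw [← map_one φ] <;>
    exact congrArg φ (Subtype.ext (by simp [coe_tv]))

theorem Gd.tv_ne (h : Gd N n φ) {v f : V3} (hv : v ≠ 0) (hf : f ≠ 0) (h0 : f ⬝ᵥ v = 0) :
    φ (tv v f h0) ≠ 1 := fun e => by
  have := h.inj (h.sq h0 rfl) (mul_one 1) (e.trans (map_one φ).symm)
  have h1 : 1 + vecMulVec v f = 1 := congrArg Subtype.val this
  exact vecMulVec_ne_zero hv hf (add_eq_left.1 h1)

theorem Gd.card_map (h : Gd N n φ) {S : Subgroup SL3} (hS : ∀ x ∈ S, x * x = 1) :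
    Nat.card (S.map φ) = Nat.card S :=
  (Nat.card_eq_of_bijective (φ.subgroupMap S) ⟨fun x y e =>
    Subtype.ext (h.inj (hS _ x.2) (hS _ y.2) (congrArg Subtype.val e)),
      φ.subgroupMap_surjective S⟩).symm

theorem map_tauA (φ : SL3 →* G) (v : V3) :
    (A v).map (φ.comp tau.toMonoidHom) = (B v).map φ := by rw [← Subgroup.map_map, tauA]

theorem map_tauB (φ : SL3 →* G) (v : V3) :
    (B v).map (φ.comp tau.toMonoidHom) = (A v).map φ := by rw [← Subgroup.map_map, tauB]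

theorem Gd.vxA (h : Gd N n φ) {v : V3} (hv : v ≠ 0) : Vx N n ((A v).map φ) := by
  refine ⟨?_, ?_, by rw [h.card_map fun _ => h.sqA, card_A hv, h.card]⟩
  · rintro _ ⟨g, -, rfl⟩; exact h.mem g
  · rintro _ ⟨g, hg, rfl⟩; rw [← map_mul, h.sqA hg, map_one]

theorem Gd.vxB (h : Gd N n φ) {v : V3} (hv : v ≠ 0) : Vx N n ((B v).map φ) :=
  map_tauA φ v ▸ (h.comp tau).vxA hv

theorem Gd.A_ne (h : Gd N n φ) {v : V3} (hv : v ≠ 0) (f : V3) : (A v).map φ ≠ (B f).map φ :=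
  fun e => A_ne_B hv f (h.le_of_map (fun _ => h.sqA) (fun _ => h.sqB) e.le)

theorem Gd.inc (h : Gd N n φ) {v f : V3} (hv : v ≠ 0) (hf : f ≠ 0) (h0 : f ⬝ᵥ v = 0) :
    Inc N n ((A v).map φ) ((B f).map φ) :=
  ⟨h.vxA hv, h.vxB hf, h.A_ne hv f, _, h.tv_ne hv hf h0, ⟨_, tv_mem_A _ _ _, rfl⟩,
    ⟨_, tv_mem_B _ _ _, rfl⟩⟩

theorem le_or_le {X S T : Subgroup G} (h : ∀ x ∈ X, x ∈ S ∨ x ∈ T) : X ≤ S ∨ X ≤ T := by
  by_contra H
  rw [not_or, SetLike.not_le_iff_exists, SetLike.not_le_iff_exists] at H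
  obtain ⟨⟨a, ha, ha'⟩, b, hb, hb'⟩ := H
  rcases h _ (mul_mem ha hb) with e | e
  · exact ha' ((mul_mem_cancel_right ((h b hb).resolve_right hb')).1 e)
  · exact hb' ((mul_mem_cancel_left ((h a ha).resolve_left ha')).1 e)

/-- The two vertices containing an elation. -/
theorem Gd.vx_eq [Finite G] (h : Gd N n φ) {v f : V3} {h0 : f ⬝ᵥ v = 0}
    (hz : φ (tv v f h0) ≠ 1) {W : Subgroup G} (hW : Vx N n W) (hzW : φ (tv v f h0) ∈ W) :
    W = (A v).map φ ∨ W = (B f).map φ := by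
  obtain ⟨hv, hf⟩ := ne_of_tv hz
  have : W ≤ (A v).map φ ∨ W ≤ (B f).map φ := le_or_le fun x hx => by
    obtain ⟨w, g, h1, rfl⟩ := h.exists_tv (hW.1 hx) (hW.2.1 x hx)
    have hc : φ (tv v f h0) * φ (tv w g h1) = φ (tv w g h1) * φ (tv v f h0) := by
      have a := hW.2.1 _ (mul_mem hzW hx)
      rw [← eq_inv_iff_mul_eq_one, _root_.mul_inv_rev, ← eq_inv_of_mul_eq_one_left (hW.2.1 _ hx),
        ← eq_inv_of_mul_eq_one_left (hW.2.1 _ hzW)] at a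
      exact a
    exact (mem_of_comm hv hf h0 h1 rfl rfl (h.comm (h.sq h0 rfl) hc)).imp
      (fun H => ⟨_, H, rfl⟩) fun H => ⟨_, H, rfl⟩
  exact this.imp (fun H => eq_of_le_of_card_ge H (by rw [(h.vxA hv).2.2, hW.2.2]))
    fun H => eq_of_le_of_card_ge H (by rw [(h.vxB hf).2.2, hW.2.2])

theorem map_conj (φ : SL3 →* G) (m : SL3) (S : Subgroup SL3) :
    S.map (φ.comp (MulAut.conj m).toMonoidHom) = (m •ᶜ S).map φ := by rw [← Subgroup.map_map]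

theorem Gd.std (h : Gd N n φ) {v f : V3} (hv : v ≠ 0) (hf : f ≠ 0) (h0 : f ⬝ᵥ v = 0) :
    ∃ ψ : SL3 →* G, Gd N n ψ ∧ (A v).map φ = (A ![1, 0, 0]).map ψ ∧
      (B f).map φ = (B ![0, 0, 1]).map ψ := by
  obtain ⟨m, h1, h2⟩ := exists_flag hv hf h0
  exact ⟨_, h.comp (MulAut.conj m), by rw [map_conj, cjA, h1], by rw [map_conj, cjB, h2]⟩

theorem Gd.of_inc [Finite G] (h : Gd N n φ) {X Y : Subgroup G} (hI : Inc N n X Y) :
    ∃ ψ : SL3 →* G, Gd N n ψ ∧ X = (A ![1, 0, 0]).map ψ ∧ Y = (B ![0, 0, 1]).map ψ := by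
  obtain ⟨hX, hY, hne, z, hz, h1, h2⟩ := hI
  obtain ⟨v, f, h0, rfl⟩ := h.exists_tv (hX.1 h1) (hX.2.1 z h1)
  obtain ⟨hv, hf⟩ := ne_of_tv hz
  rcases h.vx_eq hz hX h1 with rfl | rfl <;> rcases h.vx_eq hz hY h2 with rfl | rfl
  · exact absurd rfl hne
  · exact h.std hv hf h0
  · rw [← map_tauA φ f, ← map_tauB φ v]
    exact (h.comp tau).std hf hv (by rwa [dotProduct_comm])
  · exact absurd rfl hne

theorem Gd.two' [Finite G] (h : Gd N n φ) {z : G} (hz : z ∈ N) (h1 : z ≠ 1) (h2 : z * z = 1) :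
    ∃ X Y, Inc N n X Y ∧ z ∈ X ∧ z ∈ Y ∧ ∀ W, Vx N n W → z ∈ W → W = X ∨ W = Y := by
  obtain ⟨v, f, h0, rfl⟩ := h.exists_tv hz h2
  obtain ⟨hv, hf⟩ := ne_of_tv h1
  exact ⟨_, _, h.inc hv hf h0, ⟨_, tv_mem_A _ _ _, rfl⟩, ⟨_, tv_mem_B _ _ _, rfl⟩,
    fun W hW hzW => h.vx_eq h1 hW hzW⟩

theorem Gd.of_vx [Finite G] (h : Gd N n φ) {X : Subgroup G} (hX : Vx N n X) :
    ∃ ψ : SL3 →* G, Gd N n ψ ∧ X = (A ![1, 0, 0]).map ψ := by
  have : X ≠ ⊥ := by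
    rintro rfl
    have := hX.2.2
    rw [card_bot] at this
    have h1 : 1 < (2 ^ n) ^ 2 := Nat.one_lt_pow (by norm_num) (Nat.one_lt_two_pow (by
      have := h.pos; omega))
    omega
  obtain ⟨⟨z, hz⟩, hz1⟩ := (ne_bot_iff_exists_ne_one).1 this
  obtain ⟨X', Y, hI, -, -, H⟩ := h.two' (hX.1 hz) (fun e => hz1 (Subtype.ext e)) (hX.2.1 z hz)
  rcases H X hX hz with rfl | rfl
  · obtain ⟨ψ, a, b, -⟩ := h.of_inc hI
    exact ⟨ψ, a, b⟩
  · obtain ⟨ψ, a, b, -⟩ := h.of_inc (X := X) (Y := X')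
      ⟨hI.2.1, hI.1, hI.2.2.1.symm, hI.2.2.2.imp fun _ H => ⟨H.1, H.2.2, H.2.1⟩⟩
    exact ⟨ψ, a, b⟩

theorem e1_ne : (![1, 0, 0] : V3) ≠ 0 := fun h0 => by simpa using congrFun h0 0
theorem e2_ne : (![0, 1, 0] : V3) ≠ 0 := fun h0 => by simpa using congrFun h0 1
theorem e3_ne : (![0, 0, 1] : V3) ≠ 0 := fun h0 => by simpa using congrFun h0 2

/-- The root group of the highest root. -/
def zz (s : F) : SL3 := tv ![1, 0, 0] (s • ![0, 0, 1]) (by rw [dot3]; simp)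

theorem zz_mem_A (s : F) : zz s ∈ A ![1, 0, 0] := tv_mem_A _ _ _

theorem zz_mem_B (s : F) : zz s ∈ B ![0, 0, 1] :=
  ⟨s • ![1, 0, 0], by rw [dot3]; simp, by rw [zz, coe_tv, smul_vecMulVec, vecMulVec_smul]⟩

theorem zz_add (s t : F) : zz (s + t) = zz s * zz t := Subtype.ext (by
  change 1 + vecMulVec _ _ = (1 + vecMulVec _ _) * (1 + vecMulVec _ _)
  rw [tv_mul, add_smul, vecMulVec_add, dot3]
  simp [add_assoc])

theorem zz_inj : Function.Injective (zz : F → SL3) := fun s t e => by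
  have := congrFun (congrFun (congrArg Subtype.val e) 0) 2
  simpa [zz, coe_tv, vecMulVec_apply] using this

theorem Gd.mem_inf (h : Gd N n φ) {g : G} :
    (g ∈ (A ![1, 0, 0]).map φ ∧ g ∈ (B ![0, 0, 1]).map φ) ↔ ∃ s, φ (zz s) = g := by
  constructor
  · rintro ⟨⟨x, hx, rfl⟩, hB⟩
    obtain ⟨w, -, hw⟩ := (h.mem_map (fun _ => h.sqB) (h.sqA hx)).1 hB
    obtain ⟨f, -, hf⟩ := hx
    obtain ⟨c, rfl⟩ := par_of_eq' e1_ne (add_left_cancel (hf.symm.trans hw))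
    exact ⟨c, congrArg φ (Subtype.ext hf.symm)⟩
  · rintro ⟨s, rfl⟩
    exact ⟨⟨_, zz_mem_A s, rfl⟩, _, zz_mem_B s, rfl⟩

theorem Gd.z_inj (h : Gd N n φ) : Function.Injective fun s => φ (zz s) := fun s t e =>
  zz_inj (h.inj (h.sqA (zz_mem_A s)) (h.sqA (zz_mem_A t)) e)

theorem comm_eq {x y : SL3} {f w : V3} (hf : f ⬝ᵥ ![1, 0, 0] = 0) (hw : ![0, 0, 1] ⬝ᵥ w = 0)
    (hx : x.1 = 1 + vecMulVec ![1, 0, 0] f) (hy : y.1 = 1 + vecMulVec w ![0, 0, 1]) :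
    x * y * x⁻¹ * y⁻¹ = zz (f 1 * w 1) := by
  rw [mul_inv_eq_iff_eq_mul, mul_inv_eq_iff_eq_mul]
  apply Subtype.ext
  change x.1 * y.1 = (1 + vecMulVec _ _) * y.1 * x.1
  rw [dot3] at hf hw
  simp at hf hw
  rw [hx, hy]
  ext i j
  simp only [vecMulVec_apply, mul_apply, Fin.sum_univ_three, Matrix.add_apply]
  fin_cases i <;> fin_cases j <;> simp [one_apply, hf, hw]
  ring

theorem mem_B_of {x : SL3} {f : V3} (hf : f ⬝ᵥ ![1, 0, 0] = 0)
    (hx : x.1 = 1 + vecMulVec ![1, 0, 0] f) (h1 : f 1 = 0) : x ∈ B ![0, 0, 1] := by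
  rw [dot3] at hf
  simp at hf
  refine ⟨f 2 • ![1, 0, 0], by rw [dot3]; simp, ?_⟩
  rw [hx, smul_vecMulVec, ← vecMulVec_smul]
  congr 2
  ext i; fin_cases i <;> simp [hf, h1]

theorem mem_A_of {y : SL3} {w : V3} (hw : ![0, 0, 1] ⬝ᵥ w = 0)
    (hy : y.1 = 1 + vecMulVec w ![0, 0, 1]) (h1 : w 1 = 0) : y ∈ A ![1, 0, 0] := by
  rw [dot3] at hw
  simp at hw
  refine ⟨w 0 • ![0, 0, 1], by rw [dot3]; simp, ?_⟩
  rw [hy, vecMulVec_smul, ← smul_vecMulVec]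
  congr 2
  ext i; fin_cases i <;> simp [hw, h1]

theorem mem_of_comm' (h : Gd N n φ) {x y : SL3} {f w : V3} (hf : f ⬝ᵥ ![1, 0, 0] = 0)
    (hw : ![0, 0, 1] ⬝ᵥ w = 0) (hx : x.1 = 1 + vecMulVec ![1, 0, 0] f)
    (hy : y.1 = 1 + vecMulVec w ![0, 0, 1]) (hc : φ x * φ y = φ y * φ x) :
    φ x ∈ (B ![0, 0, 1]).map φ ∨ φ y ∈ (A ![1, 0, 0]).map φ := by
  have h1 := comm_eq hf hw hx hy
  rw [h.comm (h.sq hf hx) hc, mul_inv_cancel_right, mul_inv_cancel] at h1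
  have h2 : zz (0 : F) = 1 := Subtype.ext (by simp [zz, coe_tv])
  exact (mul_eq_zero.1 (zz_inj (h1.symm.trans h2.symm))).imp
    (fun a => ⟨x, mem_B_of hf hx a, rfl⟩) fun a => ⟨y, mem_A_of hw hy a, rfl⟩

theorem Gd.cj (m : SL3) (S : Subgroup SL3) : φ m •ᶜ S.map φ = (m •ᶜ S).map φ :=
  (map_cj φ m S).symm

theorem Gd.fixA (h : Gd N n φ) {m : SL3} {v w : V3}
    (e : φ m •ᶜ (A v).map φ = (A w).map φ) : ∃ c : F, m.1 *ᵥ v = c • w := by
  rw [Gd.cj, cjA] at e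
  exact par_of_A (h.le_of_map (fun _ => h.sqA) (fun _ => h.sqA) e.le)

theorem Gd.fixB (h : Gd N n φ) {m : SL3} {v w : V3}
    (e : φ m •ᶜ (B v).map φ = (B w).map φ) : ∃ c : F, v ᵥ* (m⁻¹).1 = c • w := by
  rw [Gd.cj, cjB] at e
  exact par_of_B (h.le_of_map (fun _ => h.sqB) (fun _ => h.sqB) e.le)

theorem cj_of_smul {m : SL3} {v w : V3} {c : F} (hc : c ≠ 0) (e : m.1 *ᵥ v = c • w) :
    φ m •ᶜ (A v).map φ = (A w).map φ := by rw [Gd.cj, cjA, e, A_smul hc]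

theorem Gd.mem_P0 (h : Gd N n φ) {m : SL3} (hm : m.1 *ᵥ ![1, 0, 0] = ![1, 0, 0]) :
    φ m ∈ P0 N n ((A ![1, 0, 0]).map φ) := by
  refine mem_of_fix (P := (P0 N n ((A ![1, 0, 0]).map φ)).comap φ) (fun w f h0 hf => ?_) hm
  by_cases hf0 : f = 0
  · subst hf0
    rw [show tv w 0 h0 = 1 from Subtype.ext (by simp [coe_tv])]
    exact one_mem _
  · exact le_sSup (s := {Y | Inc N n ((A ![1, 0, 0]).map φ) Y})
      (h.inc e1_ne hf0 (by rw [dot3]; simp [hf])) ⟨_, tv_mem_B _ _ _, rfl⟩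

theorem Gd.dg_inj (h : Gd N n φ) : Function.Injective (φ.comp dg) := by
  rw [injective_iff_map_eq_one]
  intro t ht
  obtain ⟨c, -, hc⟩ := h.eq_iff.1 (ht.trans (map_one φ).symm)
  have a := congrFun (congrFun hc 0) 0
  have b := congrFun (congrFun hc 2) 2
  simp [dg] at a b
  exact Units.ext (a.trans b.symm)

theorem Gd.tor [Finite G] [Finite F] (h : Gd N n φ) :
    Tor N n ((A ![1, 0, 0]).map φ) ((A ![0, 1, 0]).map φ) ((B ![0, 0, 1]).map φ)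
      (φ.comp dg).range (φ wm) := by
  have hq : Nat.card Fˣ + 1 = 2 ^ n := by
    rw [Nat.card_units, h.card]; have := Nat.one_le_two_pow (n := n); omega
  refine ⟨h.inc e1_ne e3_ne (by rw [dot3]; simp), h.inc e2_ne e3_ne (by rw [dot3]; simp),
    fun e => ?_, ?_, isCyclic_of_surjective _ (φ.comp dg).rangeRestrict_surjective, ?_, ?_, ?_,
    ?_, h.mem _, cj_of_smul one_ne_zero (by rw [wm_e1, one_smul]), ?_, ?_, ?_⟩
  · obtain ⟨c, hc⟩ := par_of_A (h.le_of_map (fun _ => h.sqA) (fun _ => h.sqA) e.le)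
    simpa using congrFun hc 0
  · rintro _ ⟨t, rfl⟩; exact h.mem _
  · rw [← hq, ← Nat.card_congr (MonoidHom.ofInjective h.dg_inj).toEquiv]
  · rintro _ ⟨t, rfl⟩
    exact cj_of_smul t.ne_zero (by rw [dg_mulVec]; simp)
  · rintro _ ⟨t, rfl⟩
    exact cj_of_smul (inv_ne_zero t.ne_zero) (by rw [dg_mulVec]; simp)
  · rintro _ ⟨t, rfl⟩ X ⟨hX, -, hne, z, hz, h1, x, ⟨v, hv, hx⟩, rfl⟩ e
    obtain rfl : x = tv v _ hv := Subtype.ext hx
    obtain rfl := (h.vx_eq hz hX h1).resolve_right hne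
    obtain ⟨c, hc⟩ := h.fixA e
    have hv0 := (ne_of_tv hz).1
    rw [dot3] at hv
    simp at hv
    rw [dg_mulVec] at hc
    have a := congrFun hc 0
    have b := congrFun hc 1
    simp only [cons_val_zero, cons_val_one, Pi.smul_apply, smul_eq_mul] at a b
    by_cases h0 : v 0 = 0
    · have e2 : v = v 1 • ![0, 1, 0] := by ext i; fin_cases i <;> simp [h0, hv]
      refine Or.inr (Or.inr ?_)
      rw [e2, A_smul fun e => hv0 (by rw [e2, e, zero_smul])]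
    by_cases h1 : v 1 = 0
    · have e2 : v = v 0 • ![1, 0, 0] := by ext i; fin_cases i <;> simp [h1, hv]
      refine Or.inr (Or.inl ?_)
      rw [e2, A_smul h0]
    have e1 : (t : F) = (t : F)⁻¹ := (mul_right_cancel₀ h0 a).trans (mul_right_cancel₀ h1 b).symm
    have e2 : ((t : F) - 1) ^ 2 = 0 := by
      have := mul_inv_cancel₀ t.ne_zero
      rw [← e1] at this
      linear_combination this + (1 - (t : F)) * h.two
    have e3 : t = 1 := Units.ext (sub_eq_zero.1 (pow_eq_zero_iff two_ne_zero |>.1 e2))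
    exact Or.inl (by rw [e3, map_one])
  · rintro _ ⟨t, rfl⟩
    rw [MonoidHom.comp_apply, ← map_inv, ← map_mul, ← map_mul, wm_dg, map_inv]
  · intro g hg e
    obtain ⟨m, rfl⟩ := h.ex hg
    obtain ⟨c, hc⟩ := h.fixA e
    have hc0 : c ≠ 0 := fun e => mulVec_ne m e1_ne (by rw [hc, e, zero_smul])
    refine ⟨_, ⟨Units.mk0 c hc0, rfl⟩, ?_⟩
    rw [MonoidHom.comp_apply, ← map_inv, ← map_mul, ← map_inv]
    refine h.mem_P0 ?_
    change (m.1 * (dg _).1) *ᵥ _ = _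
    rw [← mulVec_mulVec, dg_mulVec, show (![((Units.mk0 c hc0)⁻¹ : Fˣ) * (![1, 0, 0] : V3) 0,
      (((Units.mk0 c hc0)⁻¹ : Fˣ) : F)⁻¹ * (![1, 0, 0] : V3) 1, (![1, 0, 0] : V3) 2] : V3) =
        c⁻¹ • ![1, 0, 0] by simp, mulVec_smul, hc, smul_smul, inv_mul_cancel₀ hc0, one_smul]
  · rintro ⟨k, hk⟩
    have h3 : 3 ∣ Nat.card Fˣ := by
      have : 2 ^ n % 3 = 1 := by
        rw [hk, ← two_mul, pow_mul, Nat.pow_mod]; simp
      omega
    have : Fact (Nat.Prime 3) := ⟨by norm_num⟩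
    obtain ⟨ω, hω⟩ := exists_prime_orderOf_dvd_card' 3 h3
    have h1 : (ω : F) ^ 3 = 1 := by
      rw [← Units.val_pow_eq_pow_val, ← hω, pow_orderOf_eq_one, Units.val_one]
    refine ⟨_, ⟨ω, rfl⟩, fun e => ?_, ?_⟩
    · rw [h.dg_inj (e.trans (map_one _).symm), orderOf_one] at hω
      omega
    · let m : SL3 := ⟨(ω : F) ^ 2 • (dg ω).1, by
        rw [det_smul, (dg ω).2, Fintype.card_fin, mul_one, ← pow_mul, mul_comm, pow_mul, h1,
          one_pow]⟩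
      have : φ m = φ (dg ω) := h.eq_iff.2 ⟨(ω : F) ^ 2, by
        rw [← pow_mul, mul_comm, pow_mul, h1, one_pow], rfl⟩
      rw [MonoidHom.comp_apply, ← this]
      refine h.mem_P0 ?_
      change ((ω : F) ^ 2 • (dg ω).1) *ᵥ _ = _
      rw [smul_mulVec, dg_mulVec]
      ext i; fin_cases i <;> simp
      linear_combination h1

theorem Gd.fld (h : Gd N n φ) :
    Fld N ((A ![1, 0, 0]).map φ) ((B ![0, 0, 1]).map φ) fun s => φ (zz s) := by
  have key : ∀ (m : SL3) (a b : F), m.1 *ᵥ ![1, 0, 0] = a • ![1, 0, 0] →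
      ![0, 0, 1] ᵥ* (m⁻¹).1 = b • ![0, 0, 1] → ∀ t,
        φ m * φ (zz t) * (φ m)⁻¹ = φ (zz (a * b * t)) := by
    intro m a b ha hb t
    rw [← map_inv, ← map_mul, ← map_mul]
    refine congrArg φ (Subtype.ext ?_)
    rw [conj_coe m (g := zz t) (coe_tv _ _ _), ha, smul_vecMul, hb, smul_vecMulVec, ← vecMulVec_smul,
      smul_smul, smul_smul, mul_right_comm]
    rfl
  refine ⟨h.two, h.z_inj, fun s t => by rw [zz_add, map_mul], fun g => h.mem_inf, ?_, ?_⟩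
  · intro g hg e1 e2
    obtain ⟨m, rfl⟩ := h.ex hg
    obtain ⟨a, ha⟩ := h.fixA e1
    obtain ⟨b, hb⟩ := h.fixB e2
    exact ⟨_, key m a b ha hb⟩
  · intro c hc
    have ha : (dg (Units.mk0 c hc)).1 *ᵥ ![1, 0, 0] = c • ![1, 0, 0] := by rw [dg_mulVec]; simp
    have hb : ![0, 0, 1] ᵥ* ((dg (Units.mk0 c hc))⁻¹).1 = (1 : F) • ![0, 0, 1] := by
      rw [← map_inv, vecMul_dg]; simp
    refine ⟨_, h.mem (dg (Units.mk0 c hc)), cj_of_smul hc ha, by rw [Gd.cj, cjB, hb, one_smul],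
      fun t => ?_⟩
    rw [key _ _ _ ha hb, mul_one]

end CL.L3H.Lc
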